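/-
Groups in which centralisers of defect groups of classes are `p`-nilpotent: basic notions.
-/
import Mathlib
import Cfsg.Agent.Lib.Transfer.NormalComplement

set_option autoImplicit false

namespace CfsgLib.TX

open Subgroup Cfsg

variable {G : Type*} [Group G] {p : ℕ}

/-- The `p'`-elements of `A` are closed under multiplication. -/
def NP (p : ℕ) (A : Subgroup G) : Prop :=
  ∀ x ∈ A, ∀ y ∈ A, (orderOf x).Coprime p → (orderOf y).Coprime p → (orderOf (x * y)).Coprime p

theorem np_iff [Finite G] [Fact p.Prime] {A : Subgroup G} : NP p A ↔ HasNormalPComplement p A := by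
  rw [Transfer.hasNormalPComplement_iff_mul_coprime]
  constructor
  · intro h x y hx hy
    rw [← Subgroup.orderOf_coe] at hx hy ⊢
    exact h x x.2 y y.2 hx hy
  · intro h x hx y hy h1 h2
    have := h ⟨x, hx⟩ ⟨y, hy⟩ (by rwa [← Subgroup.orderOf_coe]) (by rwa [← Subgroup.orderOf_coe])
    rwa [← Subgroup.orderOf_coe] at this

theorem NP.mono {A B : Subgroup G} (h : NP p B) (hle : A ≤ B) : NP p A :=
  fun x hx y hy => h x (hle hx) y (hle hy)

theorem ord_conj (g x : G) : orderOf (g * x * g⁻¹) = orderOf x :=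
  (MulAut.conj g).orderOf_eq x

theorem eq_one_of_coprime [Fact p.Prime] {U : Subgroup G} (hU : IsPGroup p U) {c : G} (hc : c ∈ U)
    (h : (orderOf c).Coprime p) : c = 1 := by
  obtain ⟨k, hk⟩ := IsPGroup.iff_orderOf.1 hU ⟨c, hc⟩
  rw [← Subgroup.orderOf_coe] at hk
  change orderOf c = _ at hk
  exact orderOf_eq_one_iff.1 (Nat.eq_one_of_dvd_coprimes (h.pow_right k) dvd_rfl (hk ▸ dvd_rfl))

theorem NP.comm [Fact p.Prime] {A U : Subgroup G} (h : NP p A) (hU : IsPGroup p U) {x u : G}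
    (hx : x ∈ A) (hu : u ∈ A) (hc : (orderOf x).Coprime p) (huU : u ∈ U)
    (hn : x ∈ normalizer (U : Set G)) : Commute u x := by
  have h1 := h _ (A.mul_mem (A.mul_mem hu hx) (A.inv_mem hu)) _ (A.inv_mem hx)
    (by rwa [ord_conj]) (by rwa [orderOf_inv])
  have h2 : u * x * u⁻¹ * x⁻¹ ∈ U := by
    have := U.mul_mem huU ((mem_normalizer_iff.1 hn u⁻¹).1 (U.inv_mem huU))
    simpa [mul_assoc] using this
  have h3 := eq_one_of_coprime hU h2 h1
  rw [mul_inv_eq_one, mul_inv_eq_iff_eq_mul] at h3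
  exact h3

/-- The subgroup of `p'`-elements of `A`. -/
def NP.core {A : Subgroup G} (h : NP p A) : Subgroup G where
  carrier := {x | x ∈ A ∧ (orderOf x).Coprime p}
  mul_mem' := fun ha hb => ⟨A.mul_mem ha.1 hb.1, h _ ha.1 _ hb.1 ha.2 hb.2⟩
  one_mem' := ⟨A.one_mem, by simp⟩
  inv_mem' := fun ha => ⟨A.inv_mem ha.1, by rw [orderOf_inv]; exact ha.2⟩

theorem NP.mem_core {A : Subgroup G} (h : NP p A) {x : G} :
    x ∈ h.core ↔ x ∈ A ∧ (orderOf x).Coprime p := Iff.rfl

theorem NP.not_dvd_core [Finite G] [hp : Fact p.Prime] {A : Subgroup G} (h : NP p A) :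
    ¬ p ∣ Nat.card h.core := by
  intro hd
  obtain ⟨a, ha⟩ := exists_prime_orderOf_dvd_card' (G := h.core) p hd
  have := a.2.2
  rw [Subgroup.orderOf_coe, ha] at this
  exact hp.out.one_lt.ne' (Nat.eq_one_of_dvd_coprimes this dvd_rfl dvd_rfl)

theorem NP.conj_mem {A : Subgroup G} (h : NP p A) {a x : G} (ha : a ∈ A) (hx : x ∈ h.core) :
    a * x * a⁻¹ ∈ h.core :=
  ⟨A.mul_mem (A.mul_mem ha hx.1) (A.inv_mem ha), by rw [ord_conj]; exact hx.2⟩

theorem NP.le_normalizer {A : Subgroup G} (h : NP p A) : A ≤ normalizer (h.core : Set G) := by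
  intro a ha
  rw [mem_normalizer_iff]
  refine fun x => ⟨fun hx => h.conj_mem ha hx, fun hx => ?_⟩
  simpa [mul_assoc] using h.conj_mem (A.inv_mem ha) hx

/-- Every element of a surjective image with `p'`-order lifts to a `p'`-element. -/
theorem exists_lift [Finite G] [hp : Fact p.Prime] {H : Type*} [Group H] (f : G →* H) (g : G)
    (h : (orderOf (f g)).Coprime p) : ∃ k : ℕ, (orderOf (g ^ k)).Coprime p ∧ f (g ^ k) = f g := by
  obtain ⟨a, m, hm, hg⟩ := Nat.exists_eq_pow_mul_and_not_dvd (orderOf_pos g).ne' p hp.out.one_lt.ne'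
  obtain ⟨k, hk1, hk2⟩ := Nat.chineseRemainder (n := p ^ a) (h.symm.pow_left a) 0 1
  refine ⟨k, ?_, ?_⟩
  · obtain ⟨c, rfl⟩ := Nat.dvd_of_mod_eq_zero (show k % p ^ a = 0 by simpa [Nat.ModEq] using hk1)
    have : (g ^ (p ^ a * c)) ^ m = 1 := by
      rw [← pow_mul, mul_right_comm, ← hg, pow_mul, pow_orderOf_eq_one, one_pow]
    exact Nat.Coprime.coprime_dvd_left (orderOf_dvd_of_pow_eq_one this)
      ((Nat.Prime.coprime_iff_not_dvd hp.out).2 hm).symm
  · rw [map_pow, (pow_eq_pow_iff_modEq).2 hk2, pow_one]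

theorem NP.map [Finite G] [Fact p.Prime] {H : Type*} [Group H] {A : Subgroup G} (h : NP p A)
    (f : G →* H) : NP p (A.map f) := by
  rintro _ ⟨a, ha, rfl⟩ _ ⟨b, hb, rfl⟩ h1 h2
  obtain ⟨k, hk, hk'⟩ := exists_lift f a h1
  obtain ⟨l, hl, hl'⟩ := exists_lift f b h2
  rw [← hk', ← hl', ← map_mul]
  exact Nat.Coprime.coprime_dvd_left (orderOf_map_dvd f _)
    (h _ (A.pow_mem ha k) _ (A.pow_mem hb l) hk hl)

theorem NP.comap {H : Type*} [Group H] {B : Subgroup H} (h : NP p B)
    (f : G →* H) (hf : (Nat.card f.ker).Coprime p) : NP p (B.comap f) := by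
  intro a ha b hb h1 h2
  refine Transfer.coprime_orderOf_of_map f hf ?_
  rw [map_mul]
  exact h _ ha _ hb (Nat.Coprime.coprime_dvd_left (orderOf_map_dvd f _) h1)
    (Nat.Coprime.coprime_dvd_left (orderOf_map_dvd f _) h2)

/-- The fixed points of an automorphism. -/
def Fx (γ : MulAut G) : Subgroup G where
  carrier := {x | γ x = x}
  mul_mem' := fun {a b} ha hb => by
    change γ _ = _
    rw [map_mul, show γ a = a from ha, show γ b = b from hb]
  one_mem' := map_one γ
  inv_mem' := fun {a} ha => by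
    change γ _ = _
    rw [map_inv, show γ a = a from ha]

theorem mem_Fx {γ : MulAut G} {x : G} : x ∈ Fx γ ↔ γ x = x := Iff.rfl

/-- Every element of odd prime order is fixed by an involutory automorphism with a
`2`-nilpotent fixed point subgroup. -/
def Good (J : Type*) [Group J] : Prop :=
  ∀ x : J, (orderOf x).Prime → orderOf x ≠ 2 →
    ∃ γ : MulAut J, γ ≠ 1 ∧ γ * γ = 1 ∧ γ x = x ∧ NP 2 (Fx γ)

end CfsgLib.TX
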