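/-
Involutory automorphisms with `2`-nilpotent fixed point subgroup: abstract obstructions.
-/
import Mathlib
import Cfsg.Agent.Lib.TX.Defs
import Cfsg.Agent.Lib.CIT.AppOrd
import Cfsg.Agent.Lib.CIT.Basic

set_option autoImplicit false
set_option linter.unusedSectionVars false

namespace CfsgLib.TX

open Subgroup Cfsg MulAction
open scoped Pointwise

theorem fix_modEq {X : Type*} [Finite X] (f : X → X) (hf : ∀ x, f (f x) = x) :
    Nat.card X ≡ Nat.card {x // f x = x} [MOD 2] := by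
  classical
  have := Fintype.ofFinite X
  have h := Equiv.Perm.card_fixedPoints_modEq (f := (f : Function.End X)) (p := 2) (n := 1)
    (funext fun x => hf x)
  rw [← Nat.card_eq_fintype_card, ← Nat.card_eq_fintype_card] at h
  exact h

variable {J : Type*} [Group J] [Finite J]

theorem smul_smul_self {X : Type*} [MulAction (MulAut J) X] {γ : MulAut J} (h : γ * γ = 1) (x : X) :
    γ • γ • x = x := by rw [smul_smul, h, one_smul]

theorem exists_sylow_fixed (r : ℕ) [Fact r.Prime] {γ : MulAut J} (h : γ * γ = 1)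
    (ho : ¬ 2 ∣ Nat.card (Sylow r J)) : ∃ P : Sylow r J, γ • P = P := by
  have h1 := fix_modEq (fun P : Sylow r J => γ • P) (smul_smul_self h)
  by_contra hn
  have : IsEmpty {P : Sylow r J // γ • P = P} := ⟨fun x => hn ⟨x.1, x.2⟩⟩
  exact ho ((Nat.modEq_zero_iff_dvd).1 (h1.trans (by rw [Nat.card_of_isEmpty])))

theorem exists_inv_fixed {γ : MulAut J} (h : γ * γ = 1) (he : 2 ∣ Nat.card J) :
    ∃ j ∈ Fx γ, orderOf j = 2 := by
  have h1 := fix_modEq (fun x : J => γ x) fun x => by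
    change (γ * γ) x = x
    rw [h]; rfl
  have h2 : 2 ∣ Nat.card (Fx γ) :=
    (Nat.modEq_zero_iff_dvd).1 (h1.symm.trans ((Nat.modEq_zero_iff_dvd).2 he))
  obtain ⟨a, ha⟩ := exists_prime_orderOf_dvd_card' (G := Fx γ) 2 h2
  exact ⟨a, a.2, by rw [← ha, Subgroup.orderOf_coe]⟩

theorem aut_smul_smul {r : ℕ} (γ : MulAut J) (g : J) (P : Sylow r J) :
    γ • (g • P) = γ g • (γ • P) := by
  rw [Sylow.smul_def, Sylow.smul_def, smul_smul, smul_smul]
  congr 1
  ext x
  simp

theorem mem_aut_smul {r : ℕ} {γ : MulAut J} {P : Sylow r J} {x : J} (hx : x ∈ (P : Subgroup J)) :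
    γ x ∈ ((γ • P : Sylow r J) : Subgroup J) := by
  rw [Sylow.pointwise_smul_def]
  exact smul_mem_pointwise_smul x γ _ hx

section TI

variable {p : ℕ} [hp : Fact p.Prime]

theorem eq_one_of_smul_eq (hT : ∀ U V : Sylow p J, U ≠ V → (U : Subgroup J) ⊓ V = ⊥)
    {U V : Sylow p J} (hUV : U ≠ V) {u : J} (hu : u ∈ (U : Subgroup J)) (h : u • V = V) : u = 1 := by
  have h1 : u ∈ (U : Subgroup J) ⊓ normalizer (V : Set J) := ⟨hu, Sylow.smul_eq_iff_mem_normalizer.1 h⟩
  rwa [U.isPGroup'.inf_normalizer_sylow V, hT U V hUV, mem_bot] at h1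

theorem smul_self_of_mem {U : Sylow p J} {u : J} (hu : u ∈ (U : Subgroup J)) : u • U = U :=
  Sylow.smul_eq_iff_mem_normalizer.2 (le_normalizer hu)

theorem exists_smul_eq (hT : ∀ U V : Sylow p J, U ≠ V → (U : Subgroup J) ⊓ V = ⊥)
    {U V W : Sylow p J} (hc : Nat.card (Sylow p J) = Nat.card U + 1) (hV : V ≠ U) (hW : W ≠ U) :
    ∃ u ∈ (U : Subgroup J), u • V = W := by
  classical
  let f : ↥(U : Subgroup J) → {W : Sylow p J // W ≠ U} := fun u => ⟨(u : J) • V, fun h => hV (by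
    rw [← inv_smul_smul (u : J) V, h, smul_self_of_mem (inv_mem u.2)])⟩
  have hf : Function.Injective f := fun u v huv => by
    have h1 : (u : J) • V = (v : J) • V := congrArg Subtype.val huv
    have h2 : ((v : J)⁻¹ * u) • V = V := by rw [mul_smul, h1, inv_smul_smul]
    have h3 := eq_one_of_smul_eq hT hV.symm (mul_mem (inv_mem v.2) u.2) h2
    exact Subtype.ext (inv_mul_eq_one.1 h3).symm
  have h4 : Nat.card {W : Sylow p J // W ≠ U} = Nat.card U := by
    have := Fintype.ofFinite (Sylow p J)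
    rw [Nat.card_eq_fintype_card, Fintype.card_subtype_compl, Fintype.card_subtype_eq,
      ← Nat.card_eq_fintype_card, hc]
    rfl
  obtain ⟨u, hu⟩ := ((Nat.bijective_iff_injective_and_card f).2 ⟨hf, h4.symm⟩).2 ⟨W, hW⟩
  exact ⟨u, u.2, congrArg Subtype.val hu⟩

/-- Groups with a doubly transitive action on the Sylow `p`-subgroups, `p` odd. -/
theorem not_good_TI (hp2 : p ≠ 2) (hd : p ∣ Nat.card J)
    (hT : ∀ U V : Sylow p J, U ≠ V → (U : Subgroup J) ⊓ V = ⊥)
    (hc : ∀ U : Sylow p J, Nat.card (Sylow p J) = Nat.card U + 1) : ¬ Good J := by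
  intro hG
  obtain ⟨x, hx⟩ := exists_prime_orderOf_dvd_card' (G := J) p hd
  obtain ⟨γ, -, h2, hγx, hN⟩ := hG x (hx ▸ hp.out) (hx ▸ hp2)
  have hx1 : x ≠ 1 := fun h => hp.out.one_lt.ne (by rw [← hx, h, orderOf_one])
  obtain ⟨U, hU⟩ := (IsPGroup.of_card (G := zpowers x) (n := 1)
    (by rw [Nat.card_zpowers, hx, pow_one])).exists_le_sylow
  have hxU : x ∈ (U : Subgroup J) := hU (mem_zpowers x)
  have hγU : γ • U = U := by
    by_contra h
    have h1 : x ∈ ((γ • U : Sylow p J) : Subgroup J) ⊓ U := ⟨hγx ▸ mem_aut_smul hxU, hxU⟩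
    rw [hT _ _ h, mem_bot] at h1
    exact hx1 h1
  have hodd : ∀ V : Sylow p J, ∀ v ∈ (V : Subgroup J), (orderOf v).Coprime 2 := fun V v hv => by
    obtain ⟨k, hk⟩ := IsPGroup.iff_orderOf.1 V.isPGroup' ⟨v, hv⟩
    rw [← Subgroup.orderOf_coe] at hk
    change orderOf v = _ at hk
    rw [hk]
    exact ((Nat.coprime_primes hp.out Nat.prime_two).2 hp2).pow_left k
  have key : ∀ V W Y : Sylow p J, γ • V = V → γ • W = W → γ • Y = Y → W ≠ V → Y ≠ V →
      ∃ m ∈ hN.core, m • W = Y := by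
    intro V W Y hV hW hY h1 h3
    obtain ⟨u, hu, huW⟩ := exists_smul_eq hT (hc V) h1 h3
    refine ⟨u, ⟨?_, hodd V u hu⟩, huW⟩
    have h4 : γ u • W = Y := by rw [← hW, ← aut_smul_smul, huW, hY]
    have h5 : (u⁻¹ * γ u) • W = W := by rw [mul_smul, h4, ← huW, inv_smul_smul]
    have h6 := eq_one_of_smul_eq hT h1.symm (mul_mem (inv_mem hu) (hV ▸ mem_aut_smul hu)) h5
    exact (inv_mul_eq_one.1 h6).symm
  have he : 2 ∣ Nat.card {P : Sylow p J // γ • P = P} := by
    have h1 := fix_modEq (fun P : Sylow p J => γ • P) (smul_smul_self h2)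
    obtain ⟨k, hk⟩ := U.isPGroup'.exists_card_eq
    have h3 : Odd (Nat.card U) := hk ▸ (hp.out.odd_of_ne_two hp2).pow
    refine (Nat.modEq_zero_iff_dvd).1 (h1.symm.trans ((Nat.modEq_zero_iff_dvd).2 ?_))
    rw [hc U]
    exact h3.add_one.two_dvd
  have horb : orbit hN.core U = {P : Sylow p J | γ • P = P} := by
    ext Y
    constructor
    · rintro ⟨m, rfl⟩
      change γ • ((m : J) • U) = (m : J) • U
      rw [aut_smul_smul, hγU, show γ m = m from m.2.1]
    · intro hY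
      by_cases hYU : Y = U
      · rw [hYU]; exact mem_orbit_self U
      have h3 : x • Y ≠ Y := fun h => hx1 (eq_one_of_smul_eq hT (Ne.symm hYU) hxU h)
      have h4 : U ≠ x • Y := fun h => hYU (by
        rw [← inv_smul_smul x Y, ← h, smul_self_of_mem (inv_mem hxU)])
      obtain ⟨m, hm, hmU⟩ := key (x • Y) U Y (by rw [aut_smul_smul, hγx, show γ • Y = Y from hY])
        hγU hY h4 h3.symm
      exact ⟨⟨m, hm⟩, hmU⟩
  refine hN.not_dvd_core (he.trans ?_)
  have h5 := index_stabilizer hN.core U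
  rw [horb] at h5
  exact (show Nat.card {P : Sylow p J // γ • P = P} = _ from h5.symm) ▸ index_dvd_card _

end TI

theorem inverts (hC : CIT.IsCIT J) {A : Subgroup J} (hN : NP 2 A) {u x : J} (hu : u ∈ A)
    (h2 : orderOf u = 2) (hx : x ∈ hN.core) : u * x * u⁻¹ = x⁻¹ := by
  have huu : u * u = 1 := by rw [← pow_two, ← h2, pow_orderOf_eq_one]
  let f : hN.core → hN.core := fun m => ⟨(m : J)⁻¹ * (u * m * u⁻¹),
    mul_mem (inv_mem m.2) (hN.conj_mem hu m.2)⟩
  have hf : Function.Injective f := fun m n h => by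
    have h1 : (m : J)⁻¹ * (u * m * u⁻¹) = (n : J)⁻¹ * (u * n * u⁻¹) := congrArg Subtype.val h
    have h3 : Commute u ((n : J) * (m : J)⁻¹) := by
      change u * ((n : J) * (m : J)⁻¹) = (n : J) * (m : J)⁻¹ * u
      calc u * ((n : J) * (m : J)⁻¹) = n * ((n : J)⁻¹ * (u * n * u⁻¹)) * (u * (m : J)⁻¹) := by group
        _ = (n : J) * (m : J)⁻¹ * u := by rw [← h1]; group
    have h4 := CIT.App.eq_one_of_cit hC (h2 ▸ even_two)
      (Nat.coprime_two_right.1 (mul_mem n.2 (inv_mem m.2)).2) h3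
    exact Subtype.ext (mul_inv_eq_one.1 h4).symm
  obtain ⟨m, hm⟩ := Finite.injective_iff_surjective.1 hf ⟨x, hx⟩
  have h5 : (m : J)⁻¹ * (u * m * u⁻¹) = x := congrArg Subtype.val hm
  have h6 : u⁻¹ = u := inv_eq_of_mul_eq_one_right huu
  rw [← h5, h6, mul_inv_rev, mul_inv_rev, mul_inv_rev, h6, inv_inv]
  calc u * ((m : J)⁻¹ * (u * m * u)) * u = u * ((m : J)⁻¹ * u) * m * (u * u) := by group
    _ = _ := by rw [huu, mul_one]

/-- `CIT` groups with elementary abelian Sylow `2`-subgroups of order at least eight. -/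
theorem not_good_elem (hC : CIT.IsCIT J) {r : ℕ} (hr : r.Prime) (hr2 : r ≠ 2) (hd : r ∣ Nat.card J)
    (hS : ∀ S : Sylow 2 J, 4 < Nat.card S ∧ ∀ s ∈ (S : Subgroup J), s * s = 1) : ¬ Good J := by
  intro hG
  have := Fact.mk hr
  obtain ⟨x, hx⟩ := exists_prime_orderOf_dvd_card' (G := J) r hd
  obtain ⟨γ, -, h2, hγx, hN⟩ := hG x (hx ▸ hr) (hx ▸ hr2)
  have hx1 : x ≠ 1 := fun h => hr.one_lt.ne (by rw [← hx, h, orderOf_one])
  have hxo : (orderOf x).Coprime 2 := hx ▸ (Nat.coprime_primes hr Nat.prime_two).2 hr2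
  obtain ⟨S, hγ⟩ := exists_sylow_fixed 2 h2 (not_dvd_card_sylow 2 J)
  obtain ⟨h4, hsq⟩ := hS S
  have hm : ∀ s ∈ (S : Subgroup J), γ s ∈ (S : Subgroup J) := fun s hs => hγ ▸ mem_aut_smul hs
  have hcm := fun a b ha hb => CIT.comm_of_sq (a := a) (b := b) hsq ha hb
  have hγγ : ∀ s, γ (γ s) = s := fun s => by
    change (γ * γ) s = s
    rw [h2]; rfl
  obtain ⟨R, hR, hcard⟩ := CIT.card_eq_mul_of_hom (U := S) (K := Fx γ) (fun s => s * γ s)
    (fun a ha b hb => by
      rw [map_mul, mul_assoc, ← mul_assoc b, hcm b _ hb (hm a ha)]; group)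
    (fun a ha => by
      rw [mem_Fx]
      exact ⟨fun h => by rw [← mul_right_inj a, h, hsq a ha], fun h => by rw [h, hsq a ha]⟩)
  have hRle : R ≤ (S : Subgroup J) ⊓ Fx γ := fun y hy => by
    obtain ⟨a, ha, rfl⟩ := (hR y).1 hy
    exact ⟨mul_mem ha (hm a ha), mem_Fx.2 (by rw [map_mul, hγγ, hcm _ _ ha (hm a ha)])⟩
  have h3 : Nat.card ((S : Subgroup J) ⊓ Fx γ : Subgroup J) ≤ 2 := by
    by_contra hlt
    have := Fintype.ofFinite ((S : Subgroup J) ⊓ Fx γ : Subgroup J)
    rw [not_le, Nat.card_eq_fintype_card, Fintype.two_lt_card_iff] at hlt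
    have key : ∀ u v : ((S : Subgroup J) ⊓ Fx γ : Subgroup J), u ≠ 1 → v ≠ 1 → u = v := by
      intro u v hu hv
      have o : ∀ w ∈ (S : Subgroup J), w ≠ 1 → orderOf w = 2 := fun w hw h1 =>
        orderOf_eq_prime (by rw [pow_two, hsq w hw]) h1
      have e1 := inverts hC hN u.2.2 (o u u.2.1 fun h => hu (Subtype.ext h)) ⟨hγx, hxo⟩
      have e2 := inverts hC hN v.2.2 (o v v.2.1 fun h => hv (Subtype.ext h)) ⟨hγx, hxo⟩
      by_contra hne
      have h5 : (v : J)⁻¹ * u ≠ 1 := fun h => hne (Subtype.ext (inv_mul_eq_one.1 h).symm)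
      refine hx1 (CIT.App.eq_one_of_cit hC ((o _ (mul_mem (inv_mem v.2.1) u.2.1) h5) ▸ even_two)
        (Nat.coprime_two_right.1 hxo) ?_)
      change (v : J)⁻¹ * u * x = x * ((v : J)⁻¹ * u)
      calc (v : J)⁻¹ * u * x = (v : J)⁻¹ * (u * x * (u : J)⁻¹) * u := by group
        _ = _ := by rw [e1, ← e2]; group
    obtain ⟨a, b, c, hab, hac, hbc⟩ := hlt
    by_cases ha : a = 1
    · exact hbc (key b c (fun h => hab (ha.trans h.symm)) (fun h => hac (ha.trans h.symm)))
    by_cases hb : b = 1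
    · exact hac (key a c ha (fun h => hbc (hb.trans h.symm)))
    · exact hab (key a b ha hb)
  have h6 := (card_le_of_le hRle).trans h3
  nlinarith

/-- `CIT` groups all of whose involutory automorphisms are inner. -/
theorem not_good_inner (hC : CIT.IsCIT J) (hZ : center J = ⊥) {r : ℕ} (hr : r.Prime) (hr2 : r ≠ 2)
    (hd : r ∣ Nat.card J) (hI : ∀ γ : MulAut J, γ * γ = 1 → ∃ g, MulAut.conj g = γ) : ¬ Good J := by
  intro hG
  have := Fact.mk hr
  obtain ⟨x, hx⟩ := exists_prime_orderOf_dvd_card' (G := J) r hd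
  obtain ⟨γ, h1, h2, hγx, -⟩ := hG x (hx ▸ hr) (hx ▸ hr2)
  obtain ⟨g, rfl⟩ := hI γ h2
  have h3 : g * g ∈ center J := mem_center_iff.2 fun y => by
    have : MulAut.conj (g * g) y = y := by rw [map_mul, h2]; rfl
    rw [MulAut.conj_apply, mul_inv_eq_iff_eq_mul] at this
    exact this.symm
  rw [hZ, mem_bot] at h3
  have h4 : orderOf g = 2 := orderOf_eq_prime (by rw [pow_two, h3]) fun h => h1 (by rw [h, map_one])
  have h5 := CIT.App.eq_one_of_cit hC (t := g) (x := x) (h4 ▸ even_two) (hx ▸ hr.odd_of_ne_two hr2)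
    (mul_inv_eq_iff_eq_mul.1 hγx)
  exact hr.one_lt.ne (by rw [← hx, h5, orderOf_one])

/-- Groups with a self-centralising Sylow `7`-subgroup of order seven and odd automiser. -/
theorem not_good_seven {n : ℕ} (hc : Nat.card J = 7 * n) (hn : ¬ 7 ∣ n) (h2n : 2 ∣ n)
    (hord : ∀ r : ℕ, r.Prime → r ≠ 7 → ¬ CIT.App.HasOrd J (7 * r))
    (h2 : n / 2 % 7 ≠ 1) (h6 : n / 6 % 7 ≠ 1) : ¬ Good J := by
  intro hG
  have h7 : Nat.Prime 7 := by norm_num
  have := Fact.mk h7
  obtain ⟨x, hx⟩ := exists_prime_orderOf_dvd_card' (G := J) 7 ⟨n, hc⟩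
  obtain ⟨γ, -, hγ, hγx, hN⟩ := hG x (hx ▸ h7) (by rw [hx]; norm_num)
  obtain ⟨j, hj, hj2⟩ := exists_inv_fixed hγ (hc ▸ h2n.mul_left 7)
  have hjj : j * j = 1 := by rw [← pow_two, ← hj2, pow_orderOf_eq_one]
  let δ := hN.core.normalizerMonoidHom ⟨j, hN.le_normalizer hj⟩
  obtain ⟨P, hP⟩ := exists_sylow_fixed (J := hN.core) 7 (γ := δ)
    (by rw [← map_mul, ← map_one hN.core.normalizerMonoidHom]; congr 1; exact Subtype.ext hjj)
    (fun h => hN.not_dvd_core (h.trans ((Sylow.card_dvd_index (p := 7) default).trans (index_dvd_card _))))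
  have h7P : 7 ∣ Nat.card P := P.dvd_card_of_dvd_card (by
    rw [← hx]; exact orderOf_dvd_natCard _ (show x ∈ hN.core from ⟨hγx, by rw [hx]; norm_num⟩))
  obtain ⟨Q, hQ⟩ := (P.isPGroup'.map hN.core.subtype).exists_le_sylow
  have hQ7 : Nat.card Q = 7 := by
    rw [Q.card_eq_multiplicity, hc, Nat.factorization_mul (by norm_num) (by rintro rfl; simp at hn)]
    simp [h7.factorization, Nat.factorization_eq_zero_of_not_dvd hn]
  have hPQ : (P : Subgroup hN.core).map hN.core.subtype = Q :=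
    eq_of_le_of_card_ge hQ (by
      rw [card_map_of_injective (subtype_injective _)]
      exact hQ7.le.trans (Nat.le_of_dvd Nat.card_pos h7P))
  have hjN : j ∈ normalizer ((Q : Subgroup J) : Set J) := by
    refine mem_normalizer_fintype ?_
    rw [← hPQ]
    rintro _ ⟨y, hy, rfl⟩
    exact ⟨δ y, hP ▸ mem_aut_smul hy, rfl⟩
  have hcyc : IsCyclic (Q : Subgroup J) := isCyclic_of_prime_card (p := 7) hQ7
  have key := card_dvd_of_injective _ (QuotientGroup.kerLift_injective (Q : Subgroup J).normalizerMonoidHom)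
  rw [normalizerMonoidHom_ker, ← index, ← relIndex, hcyc.card_mulAut, show Nat.card (Q : Subgroup J) = 7 from hQ7,
    Nat.totient_prime h7] at key
  have hC : Nat.card (centralizer ((Q : Subgroup J) : Set J)) = 7 := by
    have h1 : IsPGroup 7 (centralizer ((Q : Subgroup J) : Set J)) := by
      rw [IsPGroup.iff_card]
      refine ⟨_, Nat.eq_prime_pow_of_unique_prime_dvd Nat.card_pos.ne' fun {r} hr hd => ?_⟩
      by_contra hr7
      have := Fact.mk hr
      obtain ⟨c, hc⟩ := exists_prime_orderOf_dvd_card' r hd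
      obtain ⟨y, hy⟩ := exists_prime_orderOf_dvd_card' (G := (Q : Subgroup J)) 7 hQ7.symm.dvd
      exact hord r hr hr7 (CIT.App.hasOrd_mul_of_commute (x := (y : J)) (y := (c : J)) (c.2 y y.2)
        (by rw [Subgroup.orderOf_coe, hy]) (by rw [Subgroup.orderOf_coe, hc])
        ((Nat.coprime_primes h7 hr).2 (Ne.symm hr7)))
    have := hcyc.isMulCommutative
    rw [Q.is_maximal' h1 (le_centralizer _)]
    exact hQ7
  have h8 := card_inf_mul_relIndex' (centralizer ((Q : Subgroup J) : Set J)) (normalizer ((Q : Subgroup J) : Set J))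
    (centralizer_le_normalizer _)
  have h9 : 2 ∣ Nat.card (normalizer ((Q : Subgroup J) : Set J)) := hj2 ▸ orderOf_dvd_natCard _ hjN
  have h10 := (normalizer ((Q : Subgroup J) : Set J)).card_mul_index
  have h11 := card_sylow_modEq_one 7 J
  rw [Q.card_eq_index_normalizer, Nat.ModEq] at h11
  rw [hC] at h8
  rw [← h8] at h9 h10
  rw [hc] at h10
  generalize relIndex (centralizer ((Q : Subgroup J) : Set J))
    (normalizer ((Q : Subgroup J) : Set J)) = e at key h9 h10
  have he := Nat.le_of_dvd (by norm_num) key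
  erw [show (1 : ℕ) % 7 = 1 from rfl] at h11
  change index (normalizer ((Q : Subgroup J) : Set J)) % 7 = 1 at h11
  generalize index (normalizer ((Q : Subgroup J) : Set J)) = i at h10 h11
  interval_cases e <;> omega
where
  card_inf_mul_relIndex' {J : Type _} [Group J] (H K : Subgroup J) (h : H ≤ K) :
      Nat.card H * H.relIndex K = Nat.card K := by
    rw [← Nat.card_congr (subgroupOfEquivOfLe h).toEquiv, relIndex, card_mul_index]

end CfsgLib.TX
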