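/-
Reduction: a maximal `p`-subgroup whose centraliser is not `p`-nilpotent yields a component.
-/
import Mathlib
import Cfsg.Agent.Lib.TX.Defs
import Cfsg.Agent.Lib.PLocal.Constrained
import Cfsg.Agent.Lib.Comp.FStar
import Cfsg.Agent.Lib.Core.Fitting

set_option autoImplicit false
set_option linter.unusedSectionVars false

namespace CfsgLib.TX

open Subgroup Cfsg CfsgLib.PLocal

variable {G : Type*} [Group G] [Finite G] {p : ℕ} [hp : Fact p.Prime]

/-- `x` has prime power order for a prime other than `p`. -/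
def PP (p : ℕ) (x : G) : Prop := ∃ r k : ℕ, r.Prime ∧ r ≠ p ∧ orderOf x = r ^ k

/-- Larger `p`-subgroups have `p`-nilpotent centralisers. -/
def Hc (p : ℕ) (Q : Subgroup G) : Prop :=
  ∀ R : Subgroup G, IsPGroup p R → Q < R → NP p (centralizer (R : Set G))

/-- Elements of prime power order centralising `Q` centralise a larger `p`-subgroup. -/
def Hd (p : ℕ) (Q : Subgroup G) : Prop :=
  ∀ x ∈ centralizer (Q : Set G), PP p x →
    ∃ R : Subgroup G, IsPGroup p R ∧ Q < R ∧ x ∈ centralizer (R : Set G)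

/-- Maximal `p`-subgroups of centralisers of elements of prime power order have
`p`-nilpotent centralisers. -/
def HX (p : ℕ) (G : Type*) [Group G] : Prop :=
  ∀ x : G, PP p x → ∀ R : Subgroup G, IsPGroup p R → x ∈ centralizer (R : Set G) →
    (∀ R' : Subgroup G, IsPGroup p R' → x ∈ centralizer (R' : Set G) → R ≤ R' → R' = R) →
    NP p (centralizer (R : Set G))

theorem PP.coprime {x : G} (h : PP p x) : (orderOf x).Coprime p := by
  obtain ⟨r, k, hr, hrp, hx⟩ := h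
  rw [hx]
  exact ((Nat.coprime_primes hr hp.out).2 hrp).pow_left k

theorem exists_lift_pp {H : Type*} [Group H] (f : G →* H) (g : G) {r k : ℕ} (hr : r.Prime)
    (h : orderOf (f g) = r ^ k) : ∃ m j : ℕ, orderOf (g ^ m) = r ^ j ∧ f (g ^ m) = f g := by
  obtain ⟨a, m, hm, hg⟩ := Nat.exists_eq_pow_mul_and_not_dvd (orderOf_pos g).ne' r hr.one_lt.ne'
  have hc : m.Coprime r := ((Nat.Prime.coprime_iff_not_dvd hr).2 hm).symm
  obtain ⟨l, hl1, hl2⟩ := Nat.chineseRemainder (hc.pow_right k) 0 1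
  obtain ⟨c, rfl⟩ := Nat.dvd_of_mod_eq_zero (show l % m = 0 by simpa [Nat.ModEq] using hl1)
  have h1 : (g ^ (m * c)) ^ r ^ a = 1 := by
    rw [← pow_mul, mul_comm, ← mul_assoc, ← hg, pow_mul, pow_orderOf_eq_one, one_pow]
  obtain ⟨j, -, hj⟩ := (Nat.dvd_prime_pow hr).1 (orderOf_dvd_of_pow_eq_one h1)
  exact ⟨m * c, j, hj, by rw [map_pow, (pow_eq_pow_iff_modEq).2 (h ▸ hl2), pow_one]⟩

theorem exists_max (hX : HX p G) (hn : ¬ NP p (⊤ : Subgroup G)) :
    ∃ R : Subgroup G, IsPGroup p R ∧ Hc p R ∧ Hd p R ∧ ¬ NP p (centralizer (R : Set G)) := by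
  obtain ⟨R, ⟨hR, hR'⟩, hmax⟩ := exists_maximal_of_wellFoundedGT
    (fun R : Subgroup G => IsPGroup p R ∧ ¬ NP p (centralizer (R : Set G)))
    ⟨⊥, IsPGroup.of_bot, fun h => hn (h.mono fun x _ y hy => by
      rw [show y = 1 from hy, one_mul, mul_one])⟩
  refine ⟨R, hR, fun R' h1 h2 => ?_, fun x hx h => ?_, hR'⟩
  · by_contra h3
    exact h2.not_ge (hmax ⟨h1, h3⟩ h2.le)
  · by_contra h3
    refine hR' (hX x h R hR hx fun R' h1 h2 h4 => ?_)
    by_contra h5
    exact h3 ⟨R', h1, lt_of_le_of_ne h4 (Ne.symm h5), h2⟩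

theorem to_normalizer {R : Subgroup G} (hc : Hc p R) (hd : Hd p R)
    (hn : ¬ NP p (centralizer (R : Set G))) :
    Hc p (R.subgroupOf (normalizer (R : Set G))) ∧ Hd p (R.subgroupOf (normalizer (R : Set G))) ∧
      ¬ NP p (centralizer (R.subgroupOf (normalizer (R : Set G)) : Set (normalizer (R : Set G)))) := by
  set N := normalizer (R : Set G)
  have hRN : R ≤ N := le_normalizer
  refine ⟨fun R' h1 h2 => ?_, fun x hx h => ?_, fun h => hn ((h.map N.subtype).mono fun x hx => ?_)⟩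
  · have h3 : R < R'.map N.subtype := by
      rw [← map_subgroupOf_eq_of_le hRN]
      exact map_subtype_lt_map_subtype.2 h2
    refine ((hc _ (h1.map _) h3).comap N.subtype (by simp)).mono fun x hx => ?_
    rintro _ ⟨y, hy, rfl⟩
    exact congrArg Subtype.val (hx y hy)
  · obtain ⟨R', h1, h2, h3⟩ := hd x (fun y hy => congrArg Subtype.val (hx ⟨y, hRN hy⟩ hy))
      (by obtain ⟨r, k, h⟩ := h; exact ⟨r, k, by rwa [Subgroup.orderOf_coe]⟩)
    refine ⟨R'.subgroupOf N, h1.comap_subtype, ?_, fun y hy => Subtype.ext (h3 y hy)⟩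
    obtain ⟨y, hy, hy'⟩ := SetLike.exists_of_lt (Core.lt_inf_normalizer_of_isPGroup h1 h2)
    exact lt_of_le_of_ne (comap_mono h2.le) fun h4 =>
      hy' (show (⟨y, hy.2⟩ : N) ∈ R.subgroupOf N from h4 ▸ hy.1)
  · exact ⟨⟨x, centralizer_le_normalizer _ hx⟩, fun y hy => Subtype.ext (hx y hy), rfl⟩

theorem to_quotient {K : Type*} [Group K] [Finite K] {f : G →* K} (hf : Function.Surjective f)
    (hk : (Nat.card f.ker).Coprime p) {Q : Subgroup G} [Q.Normal] (hQ : IsPGroup p Q) (hc : Hc p Q)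
    (hd : Hd p Q) (hn : ¬ NP p (centralizer (Q : Set G))) :
    Hc p (Q.map f) ∧ Hd p (Q.map f) ∧ ¬ NP p (centralizer (Q.map f : Set K)) := by
  refine ⟨fun R h1 h2 => ?_, fun x hx h => ?_, fun h => hn ((h.comap f hk).mono fun x hx => ?_)⟩
  · obtain ⟨P, hP, rfl⟩ := Constr.exists_isPGroup_map_eq hf h1
    have h3 : IsPGroup p (Q ⊔ P : Subgroup G) := hQ.to_sup_of_normal_left hP
    have h4 : (Q ⊔ P).map f = P.map f := by rw [Subgroup.map_sup, sup_eq_right.2 h2.le]
    rw [← h4, ← Constr.map_centralizer_of_coprime_ker hf hk h3]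
    exact (hc _ h3 (lt_of_le_of_ne le_sup_left fun h5 => h2.ne (by rw [← h4, ← h5]))).map f
  · rw [← Constr.map_centralizer_of_coprime_ker hf hk hQ] at hx
    obtain ⟨y, hy, rfl⟩ := hx
    obtain ⟨r, k, hr, hrp, h⟩ := h
    obtain ⟨m, j, h1, h2⟩ := exists_lift_pp f y hr h
    obtain ⟨R, h3, h4, h5⟩ := hd _ (pow_mem hy m) ⟨r, j, hr, hrp, h1⟩
    refine ⟨R.map f, h3.map f, lt_of_le_of_ne (map_mono h4.le) fun h6 => ?_, ?_⟩
    · obtain ⟨a, ha, ha'⟩ := SetLike.exists_of_lt h4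
      obtain ⟨b, hb, hab⟩ : f a ∈ Q.map f := h6 ▸ mem_map_of_mem f ha
      have h7 := eq_one_of_coprime h3 (mul_mem (inv_mem (h4.le hb)) ha)
        (Nat.Coprime.coprime_dvd_left (orderOf_dvd_natCard f.ker
          (by rw [MonoidHom.mem_ker, map_mul, map_inv, hab, inv_mul_cancel])) hk)
      exact ha' (inv_mul_eq_one.1 h7 ▸ hb)
    · rw [← h2]
      rintro _ ⟨a, ha, rfl⟩
      rw [← map_mul, ← map_mul, h5 a ha]
  · rintro _ ⟨a, ha, rfl⟩
    rw [← map_mul, ← map_mul, hx a ha]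

theorem layer_ne_bot (hO : pPrimeCore p G = ⊥) {Q : Subgroup G} (hc : Hc p Q) (hd : Hd p Q)
    (hn : ¬ NP p (centralizer (Q : Set G))) : layer G ≠ ⊥ := by
  intro hL
  have h1 := Comp.fstar_eq_pCore_iff.1 (Comp.fstar_eq_pCore_iff'.2 ⟨hL, hO⟩)
  have key : ∀ x ∈ centralizer (Q : Set G), (orderOf x).Coprime p → x = 1 := by
    intro x hx h
    by_contra h2
    obtain ⟨r, hr, hd'⟩ := Nat.exists_prime_and_dvd (mt orderOf_eq_one_iff.1 h2)
    have h3 := orderOf_pow_orderOf_div (orderOf_pos x).ne' hd'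
    have h4 : PP p (x ^ (orderOf x / r)) := ⟨r, 1, hr, fun h5 => hr.one_lt.ne'
      (Nat.eq_one_of_dvd_coprimes h hd' (h5 ▸ dvd_rfl)), by rw [h3, pow_one]⟩
    obtain ⟨R, h5, h6, h7⟩ := hd _ (pow_mem hx _) h4
    have h8 := Constr.eq_one_of_char_p h1 h5 h4.coprime h7 fun u hu hu' =>
      (hc R h5 h6).comm (Core.isPGroup_pCore p G) h7 hu' h4.coprime hu (le_normalizer_of_normal (mem_top _))
    exact hr.one_lt.ne (by rw [← h3, h8, orderOf_one])
  exact hn fun x hx y hy h2 h3 => by rw [key x hx h2, one_mul]; exact h3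

/-- The solvable case. -/
theorem npc_of_solvable [Group.IsSolvable G] (hX : HX p G) : HasNormalPComplement p G := by
  rw [← Transfer.hasNormalPComplement_top_iff, ← np_iff]
  by_contra hn
  obtain ⟨R, hR, h1, h2, h3⟩ := exists_max hX hn
  obtain ⟨h4, h5, h6⟩ := to_normalizer h1 h2 h3
  obtain ⟨h7, h8, h9⟩ := to_quotient (Q := R.subgroupOf _) (QuotientGroup.mk'_surjective _)
    Constr.coprime_ker_mk' hR.comap_subtype h4 h5 h6
  exact layer_ne_bot (Core.pPrimeCore_quotient_pPrimeCore p _) h7 h8 h9 Comp.layer_eq_bot_of_isSolvable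

end CfsgLib.TX
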